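import Cfsg.Agent.Lib.ClassGraph.Coset
import Cfsg.Agent.Lib.Hall.RelTwoClassMain

/-!
The two largest class sizes are coprime.
-/

set_option autoImplicit false
set_option linter.style.haveILetI false

namespace Cfsg.Agent.Lib.ClassGraph

open Subgroup Hall.TwoClass
open scoped Pointwise

variable {G : Type*} [Group G] [Finite G]

/-- The subgroup generated by the commutators of the elements of class size prime to `m`. -/
def topM (G : Type*) [Group G] (m : ℕ) : Subgroup G :=
  closure {c | ∃ a : G, (cls a).Coprime m ∧ ∃ g : G, c = a⁻¹ * (g * a * g⁻¹)}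

instance topM_normal {m : ℕ} : (topM G m).Normal := normal_closure_of_conj (by
  rintro _ ⟨a, ha, g, rfl⟩ x
  exact ⟨x * a * x⁻¹, by rwa [cls_conj], x * g * x⁻¹, by group⟩)

theorem mem_topM {m : ℕ} {a : G} (ha : (cls a).Coprime m) (g : G) : a⁻¹ * (g * a * g⁻¹) ∈ topM G m :=
  subset_closure ⟨a, ha, g, rfl⟩

theorem C1_le_of_central_mul {b c z : G} (hz : z ∈ center G) (e : b = c * z) : C1 b = C1 c := by
  ext w
  rw [mem_C1, mem_C1]
  have h : Commute w z := mem_center_iff.1 hz w
  refine ⟨fun hw => ?_, fun hw => ?_⟩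
  · have := (show Commute w b from hw).mul_right h.inv_right
    rwa [e, mul_inv_cancel_right] at this
  · rw [e]; exact (show Commute w c from hw).mul_right h

/-- `n < m` are the two largest class sizes, they are coprime, and `x`, `y` attain them. -/
structure Top (m n : ℕ) (x y : G) : Prop where
  lt : n < m
  one_lt : 1 < n
  cop : m.Coprime n
  top : ∀ z : G, cls z ≤ m
  second : ∀ z : G, cls z < m → cls z ≤ n
  hx : cls x = n
  hy : cls y = m

namespace Top

variable {m n : ℕ} {x y : G} (h : Top m n x y)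

include h

theorem absorb {b : G} (hb : cls b = m) {c : G} (hc : c ∈ topM G m) :
    ∀ v : G, IsConj b v → IsConj b (c * v) := by
  have hab : ∀ a : G, (cls a).Coprime m → cls (a * b) = cls b := fun a ha =>
    le_antisymm ((h.top _).trans hb.ge) (cls_le_cls_mul (hb.symm ▸ ha))
  induction hc using closure_induction'' with
  | one => intro v hv; rwa [one_mul]
  | mem u hu =>
    obtain ⟨a, ha, g, rfl⟩ := hu
    exact fun v hv => absorb_of_eq (hb.symm ▸ ha) (hab a ha) g hv
  | inv_mem u hu =>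
    obtain ⟨a, ha, g, rfl⟩ := hu
    intro v hv
    have ha' : (cls (g * a * g⁻¹)).Coprime m := by rwa [cls_conj]
    have := absorb_of_eq (a := g * a * g⁻¹) (hb.symm ▸ ha') (hab _ ha') g⁻¹ hv
    convert this using 2
    group
  | mul u w _ _ ihu ihw => intro v hv; rw [mul_assoc]; exact ihu _ (ihw v hv)

theorem absorb_mul {b : G} (hb : cls b = m) {c : G} (hc : c ∈ topM G m) : IsConj b (b * c) := by
  have := h.absorb hb (topM_normal.conj_mem c hc b) b (IsConj.refl b)
  rwa [show b * c * b⁻¹ * b = b * c by group] at this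

theorem card_topM : Nat.card (topM G m) ∣ m := by
  have := card_dvd_cls_of_absorb (c := y) fun c hc v hv => h.absorb h.hy hc v hv
  rwa [show cls y = m from h.hy] at this

theorem lt_card_topM : n < Nat.card (topM G m) := by
  have hle : n ≤ Nat.card (topM G m) := by
    conv_lhs => rw [← h.hx, cls, ← GS.ncard_carrier_eq_index]
    rw [← Nat.card_coe_set_eq]
    exact Nat.card_le_card_of_injective
      (fun v : (ConjClasses.mk x).carrier => (⟨x⁻¹ * (v : G), by
        obtain ⟨g, hg⟩ := isConj_iff.1 (mem_class.1 v.2)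
        rw [← hg]
        exact mem_topM (by rw [h.hx]; exact h.cop.symm) g⟩ : topM G m))
      fun v w e => Subtype.ext (mul_left_cancel (congrArg Subtype.val e))
  rcases hle.lt_or_eq with hl | he
  · exact hl
  · have := (Nat.Coprime.coprime_dvd_left h.card_topM h.cop)
    rw [← he, Nat.coprime_self] at this
    exact absurd this h.one_lt.ne'

theorem topM_le_C1 {a : G} (ha : (cls a).Coprime m) : topM G m ≤ C1 a := by
  rw [← relIndex_eq_one]
  exact Nat.eq_one_of_dvd_coprimes ha (Hall.RelTwoClass.relIndex_dvd_index_normal _ _)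
    ((relIndex_dvd_card _ _).trans h.card_topM)

theorem comm_topM {c d : G} (hc : c ∈ topM G m) (hd : d ∈ topM G m) : c * d = d * c := by
  have : topM G m ≤ C1 c := by
    rw [topM, closure_le]
    rintro _ ⟨a, ha, g, rfl⟩
    refine mem_C1.2 ?_
    have h1 : Commute c a := mem_C1.1 (h.topM_le_C1 ha hc)
    have h2 : Commute c (g * a * g⁻¹) := mem_C1.1 (h.topM_le_C1 (by rwa [cls_conj]) hc)
    exact (h1.inv_right.mul_right h2).eq.symm
  exact (mem_C1.1 (this hd)).symm

/-- A class size prime to `n` is `1` or `m`. -/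
theorem eq_of_coprime {b : G} (hb : (cls b).Coprime n) : cls b = 1 ∨ cls b = m := by
  by_contra hcon
  push Not at hcon
  obtain ⟨h1, h2⟩ := hcon
  have h0 : (cls b).Coprime (cls x) := by rw [h.hx]; exact hb
  have hd := cls_mul_dvd h0
  have hge := cls_le_cls_mul h0
  rw [h.hx] at hd hge
  have hlt : cls (b * x) < m := lt_of_le_of_ne (h.top _) fun e => by
    rw [e] at hd
    exact h2 (le_antisymm (h.top _) (Nat.le_of_dvd (Nat.pos_of_ne_zero index_ne_zero_of_finite)
      (h.cop.dvd_of_dvd_mul_right hd)))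
  have he : cls (b * x) = cls x := by rw [h.hx]; exact le_antisymm (h.second _ hlt) hge
  let Mb : Subgroup G := closure {c | ∃ g : G, ∃ u : G, c = (g * b * g⁻¹)⁻¹ * (u * (g * b * g⁻¹) * u⁻¹)}
  haveI : Mb.Normal := normal_closure_of_conj (by
    rintro _ ⟨g, u, rfl⟩ v
    exact ⟨v * g, v * u * v⁻¹, by group⟩)
  have habs : ∀ c ∈ Mb, ∀ v : G, IsConj x v → IsConj x (c * v) := by
    intro c hc
    induction hc using closure_induction'' with
    | one => intro v hv; rwa [one_mul]
    | mem c hc =>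
      obtain ⟨g, u, rfl⟩ := hc
      intro v hv
      refine absorb_of_eq (a := g * b * g⁻¹) (by rw [cls_conj]; exact h0) ?_ u hv
      refine le_antisymm ?_ (cls_le_cls_mul (by rw [cls_conj]; exact h0))
      refine le_of_le_of_eq (le_of_eq ?_) he
      have hc := isConj_mul_of_coprime h0 g 1
      rw [one_mul, inv_one, mul_one] at hc
      obtain ⟨w, hw⟩ := isConj_iff.1 hc
      rw [← hw, cls_conj]
    | inv_mem c hc =>
      obtain ⟨g, u, rfl⟩ := hc
      intro v hv
      have hb' : u * (g * b * g⁻¹) * u⁻¹ = (u * g) * b * (u * g)⁻¹ := by group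
      have := absorb_of_eq (a := u * (g * b * g⁻¹) * u⁻¹) (b := x) (by rw [cls_conj, cls_conj]; exact h0) (by
        rw [hb']
        have hc := isConj_mul_of_coprime h0 (u * g) 1
        rw [one_mul, inv_one, mul_one] at hc
        obtain ⟨w, hw⟩ := isConj_iff.1 hc
        rw [← hw, cls_conj]
        exact he) u⁻¹ hv
      convert this using 2
      group
    | mul u w _ _ ihu ihw => intro v hv; rw [mul_assoc]; exact ihu _ (ihw v hv)
  have hMb : Nat.card Mb ∣ n := by
    have := card_dvd_cls_of_absorb habs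
    rwa [show cls x = n from h.hx] at this
  have hdisj := inf_eq_bot_of_coprime (H := topM G m) (K := Mb)
    (Nat.Coprime.coprime_dvd_left h.card_topM (Nat.Coprime.coprime_dvd_right hMb h.cop))
  have hle : C1 (b * x) ≤ C1 b ⊓ C1 x := by
    intro c hc
    have e : c * b * c⁻¹ * (c * x * c⁻¹) = b * x := by
      rw [show c * b * c⁻¹ * (c * x * c⁻¹) = c * (b * x) * c⁻¹ by group, mem_C1.1 hc,
        mul_inv_cancel_right]
    have h3 : b⁻¹ * (c * b * c⁻¹) = x * (c * x * c⁻¹)⁻¹ := by
      rw [inv_mul_eq_iff_eq_mul, ← mul_assoc, eq_mul_inv_iff_mul_eq]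
      exact e
    have h4 : b⁻¹ * (c * b * c⁻¹) ∈ Mb := subset_closure ⟨1, c, by group⟩
    have h5 : x * (c * x * c⁻¹)⁻¹ ∈ topM G m := by
      have := inv_mem (topM_normal.conj_mem _ (mem_topM (a := x) (m := m) (by rw [h.hx]; exact h.cop.symm) c) x)
      convert this using 1
      group
    have h6 : b⁻¹ * (c * b * c⁻¹) = 1 := by
      rw [← mem_bot, ← hdisj]
      exact ⟨h3 ▸ h5, h4⟩
    rw [h6] at h3
    rw [inv_mul_eq_one, eq_mul_inv_iff_mul_eq] at h6
    rw [eq_comm, mul_inv_eq_one, eq_mul_inv_iff_mul_eq] at h3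
    exact ⟨mem_C1.2 h6.symm, mem_C1.2 h3.symm⟩
  have h8 := Hall.index_inf_of_coprime h0
  have h9 : (C1 b ⊓ C1 x).index ≤ (C1 (b * x)).index :=
    Nat.le_of_dvd (Nat.pos_of_ne_zero index_ne_zero_of_finite) (index_dvd_of_le hle)
  rw [h8] at h9
  change cls b * cls x ≤ cls (b * x) at h9
  rw [he] at h9
  have hn : 0 < cls x := Nat.pos_of_ne_zero index_ne_zero_of_finite
  have hb0 : 0 < cls b := Nat.pos_of_ne_zero index_ne_zero_of_finite
  have h10 : cls b ≤ 1 := Nat.le_of_mul_le_mul_right (by rwa [one_mul]) hn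
  exact h1 (le_antisymm h10 hb0)

/-- Orders prime to `|M|`: an element of class size `m` fixes nothing in `M`. -/
theorem fix_of_max {b : G} (hb : cls b = m) (hcop : (orderOf b).Coprime (Nat.card (topM G m))) :
    ∀ c ∈ topM G m, b * c = c * b → c = 1 := fun c hc hbc =>
  Split.commute_coprime_mul hbc (hcop.coprime_dvd_right (by
    rw [← Subgroup.orderOf_mk c hc]; exact orderOf_dvd_natCard _)) (h.absorb_mul hb hc)

theorem coprime_card {p : ℕ} (hp : p.Prime) (hpn : p ∣ n) {b : G} {k : ℕ} (hb : b ^ p ^ k = 1) :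
    (orderOf b).Coprime (Nat.card (topM G m)) := by
  refine Nat.Coprime.coprime_dvd_left (orderOf_dvd_of_pow_eq_one hb) (Nat.Coprime.pow_left k ?_)
  exact ((h.cop.coprime_dvd_left h.card_topM).coprime_dvd_right hpn).symm

/-- An element of prime power order for a prime of `n`, with class size `m`. -/
theorem exists_g : ∃ (g : G) (p k : ℕ), p.Prime ∧ p ∣ n ∧ g ^ p ^ k = 1 ∧ cls g = m := by
  have hyc : y ∉ center G := fun hy => by
    have h1 : cls y = 1 := by
      rw [cls, show C1 y = ⊤ from eq_top_iff.2 fun w _ => mem_C1.2 (mem_center_iff.1 hy w), index_top]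
    have := h.hy
    have := h.lt
    have := h.one_lt
    omega
  obtain ⟨s, k, y₀, hs, hy₀, hy₀o, hy₀c⟩ := exists_ppow_noncentral hyc
  have hy₀m : cls y₀ = m := by
    refine (h.eq_of_coprime (Nat.Coprime.coprime_dvd_left ?_ h.cop)).resolve_left
      fun h1 => hy₀c (mem_center_of_C1 (index_eq_one.1 h1))
    rw [← h.hy]
    exact index_dvd_of_le (C1_le_of_mem_zpowers hy₀)
  obtain ⟨p, hp, hpn⟩ := Nat.exists_prime_and_dvd h.one_lt.ne'
  by_cases hsn : s ∣ n
  · exact ⟨y₀, s, k, hs, hsn, hy₀o ▸ pow_orderOf_eq_one y₀, hy₀m⟩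
  haveI := Fact.mk hp
  have hpm : ¬ p ∣ m := fun hd => hp.not_dvd_one (h.cop ▸ Nat.dvd_gcd hd hpn)
  obtain ⟨R⟩ : Nonempty (Sylow p ↥(C1 y₀)) := inferInstance
  have hRp : IsPGroup p ↥((R : Subgroup ↥(C1 y₀)).map (C1 y₀).subtype) := R.2.map _
  have hRi : ¬ p ∣ ((R : Subgroup ↥(C1 y₀)).map (C1 y₀).subtype).index := by
    rw [index_map_subtype]
    refine fun hd => (hp.dvd_mul.1 hd).elim R.not_dvd_index fun hd' => hpm ?_
    rwa [← hy₀m]
  obtain ⟨t, htR, htc⟩ : ∃ t ∈ (R : Subgroup ↥(C1 y₀)), (t : G) ∉ center G := by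
    by_contra hcon
    push Not at hcon
    refine (hRp.toSylow hRi).not_dvd_index (hpn.trans ?_)
    rw [← h.hx]
    refine index_dvd_of_le ?_
    rintro _ ⟨t, ht, rfl⟩
    exact center_le_C1 x (hcon t ht)
  obtain ⟨j, hj⟩ := R.2 ⟨t, htR⟩
  have hj' : (t : G) ^ p ^ j = 1 := congrArg Subtype.val (congrArg Subtype.val hj)
  have hcom : Commute y₀ (t : G) := (mem_C1.1 t.2).symm
  obtain ⟨h1, h2⟩ := Hall.RelTwoClass.pElement_coprime_zpowers hcom hs hp (fun e => hsn (e ▸ hpn))
    (hy₀o ▸ pow_orderOf_eq_one y₀) hj'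
  have hle := C1_le_of_mem_zpowers h1
  have heq : C1 (y₀ * (t : G)) = C1 y₀ := by
    refine SetLike.coe_injective (Set.eq_of_subset_of_ncard_le hle ?_)
    have e1 := card_mul_index (C1 (y₀ * (t : G)))
    have e2 := card_mul_index (C1 y₀)
    have h3 : (C1 (y₀ * (t : G))).index ≤ (C1 y₀).index := (h.top _).trans hy₀m.ge
    have h4 := index_dvd_of_le hle
    have h5 := le_antisymm h3 (Nat.le_of_dvd (Nat.pos_of_ne_zero index_ne_zero_of_finite) h4)
    rw [h5, ← e2] at e1
    have h6 := Nat.eq_of_mul_eq_mul_right (Nat.pos_of_ne_zero index_ne_zero_of_finite) e1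
    rw [← Nat.card_coe_set_eq, ← Nat.card_coe_set_eq]
    exact h6.ge
  refine ⟨t, p, j, hp, hpn, hj', (h.eq_of_coprime (Nat.Coprime.coprime_dvd_left ?_ h.cop)).resolve_left
    fun h1 => htc (mem_center_of_C1 (index_eq_one.1 h1))⟩
  rw [← hy₀m]
  exact index_dvd_of_le (heq.ge.trans (C1_le_of_mem_zpowers h2))

/-- The main structure: everything at a fixed element `g`. -/
theorem main {g : G} {p k : ℕ} (hp : p.Prime) (hpn : p ∣ n) (hgk : g ^ p ^ k = 1) (hg : cls g = m) :
    (∀ v : G, cls v = m → ∃ u : G, C1 v = C1 (u * g * u⁻¹)) ∧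
    (∀ v w : G, v ∈ C1 g → w ∈ C1 g → v * w = w * v) ∧
    (∀ v : G, v ∈ C1 x ↔ ∃ c ∈ topM G m, ∃ z ∈ center G, v = c * z) ∧
    (∀ v : G, ∃ c ∈ topM G m, ∃ u ∈ C1 g, v = c * u) ∧
    (∀ c ∈ topM G m, c ∈ C1 g → c = 1) ∧
    (∀ u ∈ C1 g, u ∉ center G → ∀ c ∈ topM G m, ∃ d ∈ topM G m, d * u * d⁻¹ = u * c) ∧
    ∀ u ∈ C1 g, u ∉ center G → ∀ c ∈ topM G m, u * c = c * u → c = 1 := by
  classical
  haveI := Fact.mk hp
  set M := topM G m with hMdef
  set H := C1 g with hHdef
  have hMne : ∃ c ∈ M, c ≠ 1 := by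
    by_contra hcon
    push Not at hcon
    have hbot : M = ⊥ := (eq_bot_iff_forall M).2 hcon
    have := h.lt_card_topM
    rw [← hMdef, hbot, card_bot] at this
    have := h.one_lt
    omega
  have hfixg : ∀ c ∈ M, g * c = c * g → c = 1 := h.fix_of_max hg (h.coprime_card hp hpn hgk)
  have hMH : ∀ c ∈ M, c ∈ H → c = 1 := fun c hc hcH => hfixg c hc (mem_C1.1 hcH).symm
  -- surjectivity of `d ↦ u⁻¹ d u d⁻¹`
  have hsurj : ∀ u : G, (∀ c ∈ M, u * c = c * u → c = 1) → ∀ c ∈ M, ∃ d ∈ M, d * u * d⁻¹ = u * c := by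
    intro u hu c hc
    let ψ : ↥M → ↥M := fun d => ⟨u⁻¹ * (d : G) * u * (d : G)⁻¹,
      mul_mem (by have := topM_normal.conj_mem _ d.2 u⁻¹; rwa [inv_inv] at this) (inv_mem d.2)⟩
    have hi : Function.Injective ψ := by
      intro a b hab
      have h1 : u⁻¹ * (a : G) * u * (a : G)⁻¹ = u⁻¹ * (b : G) * u * (b : G)⁻¹ := congrArg Subtype.val hab
      have h3 : (a : G) * u * (a : G)⁻¹ = b * u * (b : G)⁻¹ := by
        rw [show u⁻¹ * (a : G) * u * (a : G)⁻¹ = u⁻¹ * ((a : G) * u * (a : G)⁻¹) by group,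
          show u⁻¹ * (b : G) * u * (b : G)⁻¹ = u⁻¹ * ((b : G) * u * (b : G)⁻¹) by group] at h1
        exact mul_left_cancel h1
      have h2 : ((b : G)⁻¹ * a) = 1 := by
        refine hu _ (mul_mem (inv_mem b.2) a.2) ?_
        calc u * ((b : G)⁻¹ * a) = (b : G)⁻¹ * ((b : G) * u * (b : G)⁻¹) * a := by group
          _ = (b : G)⁻¹ * ((a : G) * u * (a : G)⁻¹) * a := by rw [h3]
          _ = _ := by group
      exact Subtype.ext (inv_mul_eq_one.1 h2).symm
    obtain ⟨d, hd⟩ := Finite.injective_iff_surjective.1 hi ⟨c, hc⟩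
    refine ⟨d, d.2, ?_⟩
    have : u⁻¹ * (d : G) * u * (d : G)⁻¹ = c := congrArg Subtype.val hd
    rw [← this]
    group
  -- elements commuting with all of `H`
  have hHle : ∀ v : G, H ≤ C1 v → v ∈ center G ∨ C1 v = H := by
    intro v hv
    have hd : cls v ∣ m := hg ▸ index_dvd_of_le hv
    rcases h.eq_of_coprime (Nat.Coprime.coprime_dvd_left hd h.cop) with h1 | h1
    · exact Or.inl (mem_center_of_C1 (index_eq_one.1 h1))
    · refine Or.inr (le_antisymm ?_ hv)
      rw [← relIndex_eq_one]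
      have h2 := relIndex_mul_index hv
      have h3 : (C1 v).index = H.index := h1.trans hg.symm
      rw [h3] at h2
      exact Nat.eq_of_mul_eq_mul_right (Nat.pos_of_ne_zero index_ne_zero_of_finite) (by rw [h2, one_mul])
  -- `A ⊆ M Z`
  have hA : ∀ a : G, (cls a).Coprime m → ∃ c ∈ M, ∃ z ∈ center G, a = c * z := by
    intro a ha
    obtain ⟨d, hd, hde⟩ := hsurj g hfixg _ (inv_mem (mem_topM ha g⁻¹))
    -- `a * d` commutes with `g`
    have hdH : a * d ∈ H := by
      refine mem_C1.2 ?_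
      have h1 : d * g * d⁻¹ = g * ((g⁻¹ * a⁻¹ * g) * a) := by rw [hde]; group
      calc a * d * g = a * (d * g * d⁻¹) * d := by group
        _ = a * (g * ((g⁻¹ * a⁻¹ * g) * a)) * d := by rw [h1]
        _ = g * (a * d) := by group
    have hMa : M ≤ C1 (a * d) := fun c hc => mem_C1.2 (by
      rw [← mul_assoc, mem_C1.1 (h.topM_le_C1 ha hc), mul_assoc, h.comm_topM hc hd, ← mul_assoc])
    have hHa : H ≤ C1 (a * d) := fun u hu => by
      have h1 : (a * d)⁻¹ * (u * (a * d) * u⁻¹) = 1 := by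
        refine hMH _ ?_ (H.mul_mem (H.inv_mem hdH) (H.mul_mem (H.mul_mem hu hdH) (H.inv_mem hu)))
        rw [show (a * d)⁻¹ * (u * (a * d) * u⁻¹) =
          d⁻¹ * ((a⁻¹ * (u * a * u⁻¹)) * (u * d * u⁻¹)) by group]
        exact mul_mem (inv_mem hd) (mul_mem (mem_topM ha u) (topM_normal.conj_mem d hd u))
      rw [inv_mul_eq_one, eq_mul_inv_iff_mul_eq] at h1
      exact mem_C1.2 h1.symm
    rcases hHle _ hHa with hc | hc
    · refine ⟨d⁻¹, inv_mem hd, a * d, hc, ?_⟩
      rw [mem_center_iff.1 hc d⁻¹, mul_inv_cancel_right]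
    · obtain ⟨c, hcM, hc1⟩ := hMne
      exact absurd (hMH c hcM (hc ▸ hMa hcM)) hc1
  obtain ⟨μ, hμ, z₀, hz₀, hxμ⟩ := hA x (by rw [h.hx]; exact h.cop.symm)
  have hCx : C1 x = C1 μ := C1_le_of_central_mul hz₀ hxμ
  have hμc : μ ∉ center G := fun hc => by
    have h1 : cls x = 1 := by
      rw [cls, hCx, show C1 μ = ⊤ from eq_top_iff.2 fun w _ => mem_C1.2 (mem_center_iff.1 hc w), index_top]
    have := h.hx
    have := h.one_lt
    omega
  -- `C(x) ∩ H = Z`
  have hD : C1 x ⊓ H ≤ center G := by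
    refine le_of_prime_power_mem fun r hr c hc ⟨j, hj⟩ => ?_
    have hcr : c ^ r ^ j = 1 := hj ▸ pow_orderOf_eq_one c
    by_contra hcc
    by_cases hrn : r ∣ n
    · -- coprime to `μ`
      have hcm : Commute μ c := (mem_C1.1 (hCx ▸ hc.1)).symm
      have hcop : (orderOf μ).Coprime (orderOf c) :=
        ((h.coprime_card hr hrn hcr).coprime_dvd_right (by
          rw [← Subgroup.orderOf_mk μ hμ]; exact orderOf_dvd_natCard _)).symm
      obtain ⟨u, hu⟩ := exists_pow_eq_self_of_coprime hcop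
      obtain ⟨u', hu'⟩ := exists_pow_eq_self_of_coprime hcop.symm
      have h1 : c ∈ zpowers (μ * c) := by
        have := pow_mem (pow_mem (mem_zpowers (μ * c)) (orderOf μ)) u
        rwa [hcm.mul_pow, pow_orderOf_eq_one, one_mul, hu] at this
      have h2 : μ ∈ zpowers (μ * c) := by
        have := pow_mem (pow_mem (mem_zpowers (μ * c)) (orderOf c)) u'
        rwa [hcm.mul_pow, pow_orderOf_eq_one, mul_one, hu'] at this
      have hle : C1 (μ * c) ≤ C1 x := hCx ▸ C1_le_of_mem_zpowers h2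
      have hd := index_dvd_of_le hle
      have heq : cls (μ * c) = n := by
        have hnd : n ∣ cls (μ * c) := h.hx ▸ hd
        refine le_antisymm (h.second _ (lt_of_le_of_ne (h.top _) fun e => ?_))
          (Nat.le_of_dvd (Nat.pos_of_ne_zero index_ne_zero_of_finite) hnd)
        rw [e] at hnd
        exact h.one_lt.ne' (Nat.eq_one_of_dvd_coprimes h.cop hnd dvd_rfl)
      have hcn : cls c ∣ n := heq ▸ index_dvd_of_le (C1_le_of_mem_zpowers h1)
      obtain ⟨c', hc', z, hz, e⟩ := hA c (Nat.Coprime.coprime_dvd_left hcn h.cop.symm)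
      have : c' = 1 := hMH c' hc' (by
        rw [show c' = c * z⁻¹ by rw [e, mul_inv_cancel_right]]
        exact H.mul_mem hc.2 (H.inv_mem (center_le_C1 g hz)))
      exact hcc (by rw [e, this, one_mul]; exact hz)
    · -- then `H` centralises `c`
      have hcg : Commute g c := (mem_C1.1 hc.2).symm
      obtain ⟨h1, h2⟩ := Hall.RelTwoClass.pElement_coprime_zpowers hcg hp hr (fun e => hrn (e ▸ hpn)) hgk hcr
      have hle := C1_le_of_mem_zpowers h1
      have hHc : H ≤ C1 c := by
        have heq : C1 (g * c) = H := by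
          refine le_antisymm hle ?_
          rw [← relIndex_eq_one]
          have h3 := relIndex_mul_index hle
          have h4 : (C1 (g * c)).index = H.index := le_antisymm ((h.top _).trans hg.ge)
            (Nat.le_of_dvd (Nat.pos_of_ne_zero index_ne_zero_of_finite) (index_dvd_of_le hle))
          rw [h4] at h3
          exact Nat.eq_of_mul_eq_mul_right (Nat.pos_of_ne_zero index_ne_zero_of_finite) (by rw [h3, one_mul])
        rw [← heq]
        exact C1_le_of_mem_zpowers h2
      rcases hHle c hHc with hz | hz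
      · exact hcc hz
      · have : μ ∈ C1 c := mem_C1.2 (mem_C1.1 (hCx ▸ hc.1)).symm
        exact hμc (by rw [hMH μ hμ (hz ▸ this)]; exact one_mem _)
  have hHid : H.index = m := hg
  have hxid : (C1 x).index = n := h.hx
  have hcenter : C1 x ⊓ H = center G :=
    le_antisymm hD (le_inf (center_le_C1 x) (center_le_C1 g))
  have hcenI : (center G).index = n * m := by
    rw [← hcenter, Hall.index_inf_of_coprime (by rw [hxid, hHid]; exact h.cop.symm), hxid, hHid]
  have hZH : (center G).relIndex H = n := by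
    have := relIndex_mul_index (show center G ≤ H from center_le_C1 g)
    rw [hcenI, hHid] at this
    exact Nat.eq_of_mul_eq_mul_right (by have := h.lt; omega) this
  -- `p`-elements of `H` fix nothing
  have hfix : ∀ (r : ℕ), r.Prime → r ∣ n → ∀ w ∈ H, ∀ j : ℕ, w ^ r ^ j = 1 → w ∉ center G →
      cls w = m ∧ ∀ c ∈ M, w * c = c * w → c = 1 := by
    intro r hr hrn w hw j hwj hwc
    suffices hm : cls w = m from ⟨hm, h.fix_of_max hm (h.coprime_card hr hrn hwj)⟩
    by_contra hwm
    letI : CommGroup ↥M := { (inferInstance : Group ↥M) with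
      mul_comm := fun a b => Subtype.ext (h.comm_topM a.2 b.2) }
    let ψ : ↥M →* ↥M :=
      { toFun := fun e => ⟨(e : G)⁻¹ * (w * e * w⁻¹), mul_mem (inv_mem e.2) (topM_normal.conj_mem _ e.2 w)⟩
        map_one' := Subtype.ext (by simp)
        map_mul' := fun a b => by
          have e : ∀ a : ↥M, (⟨(a : G)⁻¹ * (w * a * w⁻¹), mul_mem (inv_mem a.2)
              (topM_normal.conj_mem _ a.2 w)⟩ : ↥M) = a⁻¹ * ⟨w * a * w⁻¹, topM_normal.conj_mem _ a.2 w⟩ :=
            fun a => rfl
          rw [e, e, e, show (⟨w * (a * b : ↥M) * w⁻¹, topM_normal.conj_mem _ (a * b).2 w⟩ : ↥M) =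
            ⟨w * a * w⁻¹, topM_normal.conj_mem _ a.2 w⟩ * ⟨w * b * w⁻¹, topM_normal.conj_mem _ b.2 w⟩ from
            Subtype.ext (by simp [mul_assoc]), mul_inv, mul_mul_mul_comm] }
    have hker : ∀ e : ↥M, e ∈ ψ.ker ↔ w * (e : G) = e * w := fun e => by
      rw [MonoidHom.mem_ker, Subtype.ext_iff]
      show (e : G)⁻¹ * (w * e * w⁻¹) = 1 ↔ _
      rw [inv_mul_eq_one, eq_comm, mul_inv_eq_iff_eq_mul]
    have hdis : ψ.ker ⊓ ψ.range = ⊥ := by
      rw [eq_bot_iff]
      rintro _ ⟨hk, f, rfl⟩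
      have hc : Commute w (ψ f : G) := (hker _).1 hk
      have hpow : ∀ i : ℕ, w ^ i * (f : G) * (w ^ i)⁻¹ = f * (ψ f : G) ^ i := by
        intro i
        induction i with
        | zero => simp
        | succ i ih =>
          calc w ^ (i + 1) * (f : G) * (w ^ (i + 1))⁻¹ = w * (w ^ i * f * (w ^ i)⁻¹) * w⁻¹ := by
                rw [pow_succ']; group
            _ = w * f * ((ψ f : G) ^ i * w⁻¹) := by rw [ih]; group
            _ = w * f * (w⁻¹ * (ψ f : G) ^ i) := by rw [(hc.pow_right i).inv_left.eq]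
            _ = f * ((f : G)⁻¹ * (w * f * w⁻¹)) * (ψ f : G) ^ i := by group
            _ = f * (ψ f : G) * (ψ f : G) ^ i := rfl
            _ = f * (ψ f : G) ^ (i + 1) := by rw [pow_succ', mul_assoc]
      have h1 := hpow (r ^ j)
      rw [hwj, one_mul, inv_one, mul_one, left_eq_mul] at h1
      have h2 : orderOf (ψ f : G) ∣ Nat.card M := by
        rw [Subgroup.orderOf_coe]; exact orderOf_dvd_natCard _
      have h3 : (Nat.card M).Coprime (r ^ j) :=
        Nat.Coprime.pow_right j ((h.cop.coprime_dvd_left h.card_topM).coprime_dvd_right hrn)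
      refine mem_bot.2 (Subtype.ext ?_)
      exact orderOf_eq_one_iff.1 (Nat.eq_one_of_dvd_coprimes h3 h2 (orderOf_dvd_of_pow_eq_one h1))
    have htop : ψ.ker ⊔ ψ.range = ⊤ := by
      haveI : ψ.ker.Normal := inferInstance
      have h1 := Subgroup.card_eq_card_quotient_mul_card_subgroup ψ.ker
      rw [Nat.card_congr (QuotientGroup.quotientKerEquivRange ψ).toEquiv, mul_comm] at h1
      exact (isComplement'_of_card_mul_and_disjoint h1.symm (disjoint_iff.2 hdis)).sup_eq_top
    obtain ⟨τ, hτ, μ₁, hμ₁, e⟩ := Subgroup.mem_sup.1 (htop ▸ mem_top (⟨μ, hμ⟩ : ↥M))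
    have hwτ : Commute w (τ : G) := (hker τ).1 hτ
    have eμ : (τ : G) * (μ₁ : G) = μ := congrArg Subtype.val e
    set E := H ⊓ C1 w ⊓ C1 (τ : G) with hE
    -- the orbit of `μ₁` under `E`
    have hEZ : ∀ c ∈ E, c * (μ₁ : G) = μ₁ * c → c ∈ center G := fun c hc hcμ => by
      refine hD ⟨?_, hc.1.1⟩
      show c ∈ C1 x
      rw [hCx, mem_C1, ← eμ, ← mul_assoc, mem_C1.1 hc.2, mul_assoc, hcμ, ← mul_assoc]
    have hconjI : ∀ c ∈ E, (⟨c * (μ₁ : G) * c⁻¹, topM_normal.conj_mem _ μ₁.2 c⟩ : ↥M) ∈ ψ.range := by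
      intro c hc
      obtain ⟨f, hf⟩ := hμ₁
      refine ⟨⟨c * f * c⁻¹, topM_normal.conj_mem _ f.2 c⟩, Subtype.ext ?_⟩
      show (c * f * c⁻¹)⁻¹ * (w * (c * f * c⁻¹) * w⁻¹) = c * (μ₁ : G) * c⁻¹
      rw [← hf]
      show _ = c * ((f : G)⁻¹ * (w * f * w⁻¹)) * c⁻¹
      have hw' : c * w * c⁻¹ = w := by rw [mem_C1.1 hc.1.2, mul_inv_cancel_right]
      have h0 : (c * (f : G) * c⁻¹)⁻¹ * (c * w * c⁻¹ * (c * f * c⁻¹) * (c * w * c⁻¹)⁻¹) =
          c * ((f : G)⁻¹ * (w * f * w⁻¹)) * c⁻¹ := by group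
      rwa [hw'] at h0
    have hμ₁1 : (μ₁ : G) ≠ 1 := fun h1 => by
      rw [h1, mul_one] at eμ
      exact hwc (hD ⟨hCx ▸ mem_C1.2 (eμ ▸ hwτ.eq), hw⟩)
    have hEcard : (center G).relIndex E + 1 ≤ Nat.card ψ.range := by
      let F : ↥E ⧸ (center G).subgroupOf E → ↥ψ.range := fun q =>
        ⟨⟨(q.out : G) * (μ₁ : G) * (q.out : G)⁻¹, topM_normal.conj_mem _ μ₁.2 _⟩, hconjI _ q.out.2⟩
      have hF : Function.Injective F := by
        intro q q' hqq
        have h1 : (q.out : G) * (μ₁ : G) * (q.out : G)⁻¹ = (q'.out : G) * (μ₁ : G) * (q'.out : G)⁻¹ :=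
          congrArg Subtype.val (congrArg Subtype.val hqq)
        rw [← QuotientGroup.out_eq' q, ← QuotientGroup.out_eq' q', QuotientGroup.eq, mem_subgroupOf]
        refine hEZ _ (q.out⁻¹ * q'.out).2 ?_
        rw [Subgroup.coe_mul, Subgroup.coe_inv]
        calc (q.out : G)⁻¹ * q'.out * μ₁
            = (q.out : G)⁻¹ * ((q'.out : G) * μ₁ * (q'.out : G)⁻¹) * q'.out := by group
          _ = (q.out : G)⁻¹ * ((q.out : G) * μ₁ * (q.out : G)⁻¹) * q'.out := by rw [h1]
          _ = _ := by group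
      haveI := Fintype.ofFinite (↥E ⧸ (center G).subgroupOf E)
      haveI := Fintype.ofFinite ↥ψ.range
      rw [relIndex, index_eq_card, Nat.card_eq_fintype_card, Nat.card_eq_fintype_card, Nat.add_one_le_iff]
      refine Fintype.card_lt_of_injective_of_notMem F hF (b := 1) ?_
      rintro ⟨q, hq⟩
      have h1 : (q.out : G) * (μ₁ : G) * (q.out : G)⁻¹ = 1 := congrArg Subtype.val (congrArg Subtype.val hq)
      rw [conj_eq_one_iff] at h1
      exact hμ₁1 h1
    -- the centraliser of `w τ`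
    have hcop : (orderOf w).Coprime (orderOf (τ : G)) :=
      (h.coprime_card hr hrn hwj).coprime_dvd_right (by
        rw [Subgroup.orderOf_coe]; exact orderOf_dvd_natCard _)
    have hC' : C1 (w * (τ : G)) ≤ C1 w ⊓ C1 (τ : G) := by
      obtain ⟨u, hu⟩ := exists_pow_eq_self_of_coprime hcop
      obtain ⟨u', hu'⟩ := exists_pow_eq_self_of_coprime hcop.symm
      have h1 : (τ : G) ∈ zpowers (w * (τ : G)) := by
        have := pow_mem (pow_mem (mem_zpowers (w * (τ : G))) (orderOf w)) u
        rwa [hwτ.mul_pow, pow_orderOf_eq_one, one_mul, hu] at this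
      have h2 : w ∈ zpowers (w * (τ : G)) := by
        have := pow_mem (pow_mem (mem_zpowers (w * (τ : G))) (orderOf (τ : G))) u'
        rwa [hwτ.mul_pow, pow_orderOf_eq_one, mul_one, hu'] at this
      exact le_inf (C1_le_of_mem_zpowers h2) (C1_le_of_mem_zpowers h1)
    have hcount : Nat.card ψ.range * E.relIndex H ≤ cls (w * (τ : G)) := by
      let F : (↥M ⧸ ψ.ker) × (↥H ⧸ E.subgroupOf H) → G ⧸ C1 (w * (τ : G)) := fun q =>
        QuotientGroup.mk ((q.2.out : G) * (q.1.out : G))
      have hF : Function.Injective F := by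
        rintro ⟨a, b⟩ ⟨a', b'⟩ hq
        have hc := hC' (QuotientGroup.eq.1 hq)
        set d := ((b.out : G))⁻¹ * (b'.out : G) with hd
        have hdH : d ∈ H := H.mul_mem (H.inv_mem b.out.2) b'.out.2
        have e : ((b.out : G) * (a.out : G))⁻¹ * ((b'.out : G) * (a'.out : G)) =
            d * ((d⁻¹ * (a.out : G)⁻¹ * d) * (a'.out : G)) := by rw [hd]; group
        rw [e] at hc
        set e' := (d⁻¹ * (a.out : G)⁻¹ * d) * (a'.out : G) with he'
        have heM : e' ∈ M := mul_mem (by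
          have := topM_normal.conj_mem _ (inv_mem a.out.2) d⁻¹
          rwa [inv_inv] at this) a'.out.2
        have hdw : d * w = w * d := by
          have h1 : d⁻¹ * (w * d * w⁻¹) = e' * (w * e'⁻¹ * w⁻¹) := by
            have h0 : d * e' * w = w * (d * e') := mem_C1.1 hc.1
            calc d⁻¹ * (w * d * w⁻¹) = d⁻¹ * (w * (d * e')) * (e'⁻¹ * w⁻¹) := by group
              _ = d⁻¹ * (d * e' * w) * (e'⁻¹ * w⁻¹) := by rw [h0]
              _ = _ := by group
          have h2 : d⁻¹ * (w * d * w⁻¹) = 1 := hMH _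
            (h1 ▸ mul_mem heM (topM_normal.conj_mem _ (inv_mem heM) w))
            (H.mul_mem (H.inv_mem hdH) (H.mul_mem (H.mul_mem hw hdH) (H.inv_mem hw)))
          rw [inv_mul_eq_one, eq_mul_inv_iff_mul_eq] at h2
          exact h2
        have hdC : d ∈ C1 w := mem_C1.2 hdw
        have heC : e' ∈ C1 w := by
          have := (C1 w).mul_mem ((C1 w).inv_mem hdC) hc.1
          rwa [inv_mul_cancel_left] at this
        have hdτ : d ∈ C1 (τ : G) := by
          have := (C1 (τ : G)).mul_mem hc.2 ((C1 (τ : G)).inv_mem (mem_C1.2 (h.comm_topM heM τ.2)))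
          rwa [mul_inv_cancel_right] at this
        have hbb : b = b' := by
          rw [← QuotientGroup.out_eq' b, ← QuotientGroup.out_eq' b', QuotientGroup.eq, mem_subgroupOf]
          exact ⟨⟨hdH, hdC⟩, hdτ⟩
        subst hbb
        rw [show d = 1 by rw [hd, inv_mul_cancel], inv_one, one_mul, mul_one] at he'
        refine Prod.ext ?_ rfl
        rw [← QuotientGroup.out_eq' a, ← QuotientGroup.out_eq' a', QuotientGroup.eq, hker]
        show w * ((a.out : G)⁻¹ * (a'.out : G)) = (a.out : G)⁻¹ * (a'.out : G) * w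
        rw [← he']
        exact (mem_C1.1 heC).symm
      have h1 := Nat.card_le_card_of_injective F hF
      rw [Nat.card_prod, Nat.card_congr (QuotientGroup.quotientKerEquivRange ψ).toEquiv] at h1
      exact h1
    have hZE : center G ≤ E := le_inf (le_inf (center_le_C1 g) (center_le_C1 w)) (center_le_C1 _)
    have hmul := relIndex_mul_relIndex (center G) E H hZE (inf_le_left.trans inf_le_left)
    rw [hZH] at hmul
    have hne : 0 < E.relIndex H := Nat.pos_of_ne_zero index_ne_zero_of_finite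
    have hn' : n < cls (w * (τ : G)) := by
      refine lt_of_lt_of_le ?_ hcount
      rw [← hmul]
      exact Nat.mul_lt_mul_of_pos_right hEcard hne
    have hτm : cls (w * (τ : G)) = m := (h.top _).eq_of_not_lt fun hl => absurd (h.second _ hl) (not_le.2 hn')
    have hconj := h.absorb_mul hτm (inv_mem τ.2)
    rw [mul_inv_cancel_right] at hconj
    obtain ⟨u, hu⟩ := isConj_iff.1 hconj
    rw [← hu, cls_conj] at hwm
    exact hwm hτm
  -- every noncentral element of `H`
  have hfpf : ∀ u ∈ H, u ∉ center G → ∀ c ∈ M, u * c = c * u → c = 1 := by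
    intro u hu huc c hc huC
    obtain ⟨r, j, u', hr, hu', huo, hu'c⟩ := exists_ppow_noncentral huc
    have hu'H : u' ∈ H := zpowers_le.2 hu hu'
    have hu'C : u' * c = c * u' := by
      obtain ⟨i, rfl⟩ := mem_zpowers_iff.1 hu'
      exact ((show Commute u c from huC).zpow_left i).eq
    have hu'r : u' ^ r ^ j = 1 := huo ▸ pow_orderOf_eq_one u'
    by_cases hrn : r ∣ n
    · exact (hfix r hr hrn u' hu'H j hu'r hu'c).2 c hc hu'C
    · have hcg : Commute g u' := (mem_C1.1 hu'H).symm
      obtain ⟨h1, h2⟩ := Hall.RelTwoClass.pElement_coprime_zpowers hcg hp hr (fun e => hrn (e ▸ hpn)) hgk hu'r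
      have hle := C1_le_of_mem_zpowers h1
      have heq : C1 (g * u') = H := by
        refine le_antisymm hle ?_
        rw [← relIndex_eq_one]
        have h3 := relIndex_mul_index hle
        have h4 : (C1 (g * u')).index = H.index := le_antisymm ((h.top _).trans hg.ge)
          (Nat.le_of_dvd (Nat.pos_of_ne_zero index_ne_zero_of_finite) (index_dvd_of_le hle))
        rw [h4] at h3
        exact Nat.eq_of_mul_eq_mul_right (Nat.pos_of_ne_zero index_ne_zero_of_finite) (by rw [h3, one_mul])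
      rcases hHle u' (heq ▸ C1_le_of_mem_zpowers h2) with hz | hz
      · exact absurd hz hu'c
      · exact hMH c hc (hz ▸ mem_C1.2 hu'C.symm)
  have hclsH : ∀ u ∈ H, u ∉ center G → cls u = m := by
    intro u hu huc
    refine (h.top u).eq_of_not_lt fun hl => absurd (h.second u hl) (not_le.2 (h.lt_card_topM.trans_le ?_))
    rw [cls, index_eq_card]
    refine Nat.card_le_card_of_injective (fun c : ↥M => (QuotientGroup.mk (c : G) : G ⧸ C1 u))
      fun a b hab => Subtype.ext ?_
    have h1 := mem_C1.1 (QuotientGroup.eq.1 hab)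
    exact inv_mul_eq_one.1 (hfpf u hu huc _ (mul_mem (inv_mem a.2) b.2) h1.symm)
  -- classes of elements of prime power order for primes of `n`
  have hpel : ∀ r : ℕ, r.Prime → r ∣ n → ∀ (w : G) (j : ℕ), w ^ r ^ j = 1 → w ∉ center G → cls w = m := by
    intro r hr hrn w j hwj hwc
    haveI := Fact.mk hr
    obtain ⟨R⟩ : Nonempty (Sylow r ↥H) := inferInstance
    have hRp : IsPGroup r ↥((R : Subgroup ↥H).map H.subtype) := R.2.map _
    have hRi : ¬ r ∣ ((R : Subgroup ↥H).map H.subtype).index := by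
      rw [index_map_subtype, hHid]
      exact fun hd => (hr.dvd_mul.1 hd).elim R.not_dvd_index
        fun hd' => hr.not_dvd_one (h.cop ▸ Nat.dvd_gcd hd' hrn)
    obtain ⟨i, -, hi⟩ := (Nat.dvd_prime_pow hr).1 (orderOf_dvd_of_pow_eq_one hwj)
    obtain ⟨Q, hQ⟩ := (IsPGroup.of_card (n := i) (by rw [Nat.card_zpowers, hi]) :
      IsPGroup r (zpowers w)).exists_le_sylow
    obtain ⟨u, hu⟩ := MulAction.exists_smul_eq G Q (hRp.toSylow hRi)
    have h1 : u * w * u⁻¹ ∈ ((hRp.toSylow hRi : Sylow r G) : Subgroup G) := by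
      rw [← hu, Sylow.coe_subgroup_smul]
      exact ⟨w, hQ (mem_zpowers w), rfl⟩
    have h2 : u * w * u⁻¹ ∈ H := map_subtype_le _ h1
    rw [← cls_conj u w]
    exact hclsH _ h2 fun hc => hwc (by
      have := (inferInstance : (center G).Normal).conj_mem _ hc u⁻¹
      simpa [mul_assoc] using this)
  -- either the class size is `n`, or a Sylow `p`-subgroup is centralised
  have hdich : ∀ v : G, p ∣ cls v → cls v = n := by
    intro v hpv
    have hvm : cls v ≠ m := fun e => hp.not_dvd_one (h.cop ▸ Nat.dvd_gcd (e ▸ hpv) hpn)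
    have hvn : cls v ≤ n := h.second v (lt_of_le_of_ne (h.top v) hvm)
    refine le_antisymm hvn (Nat.le_of_dvd (Nat.pos_of_ne_zero index_ne_zero_of_finite) ?_)
    have hmul := relIndex_mul_index (center_le_C1 v)
    rw [hcenI] at hmul
    refine Nat.Coprime.dvd_of_dvd_mul_left ?_ (hmul.symm ▸ dvd_mul_right n m :
      n ∣ (center G).relIndex (C1 v) * cls v)
    refine Nat.coprime_of_dvd fun r hr hrn hrd => ?_
    haveI := Fact.mk hr
    haveI : ((center G).subgroupOf (C1 v)).Normal := Subgroup.normal_subgroupOf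
    obtain ⟨R⟩ : Nonempty (Sylow r ↥(C1 v)) := inferInstance
    obtain ⟨w, hwR, hwc⟩ : ∃ w ∈ (R : Subgroup ↥(C1 v)), (w : G) ∉ center G := by
      by_contra hcon
      push Not at hcon
      exact R.not_dvd_index (hrd.trans (index_dvd_of_le fun w hw => hcon w hw))
    obtain ⟨j, hj⟩ := R.2 ⟨w, hwR⟩
    have hwj : (w : G) ^ r ^ j = 1 := congrArg Subtype.val (congrArg Subtype.val hj)
    have hwm := hpel r hr hrn w j hwj hwc
    have hvw : Commute v (w : G) := (mem_C1.1 w.2).symm
    set e := ordProj[r] (orderOf v) with he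
    set d := ordCompl[r] (orderOf v) with hd
    have hed : e * d = orderOf v := Nat.ordProj_mul_ordCompl_eq_self _ _
    by_cases hvd : v ^ d ∈ center G
    · -- `C(v) ⊇ C(w)`
      obtain ⟨u, hu⟩ : ∃ u, ((w : G) ^ d) ^ u = w := exists_pow_eq_self_of_coprime (by
        obtain ⟨i, -, hi⟩ := (Nat.dvd_prime_pow hr).1 (orderOf_dvd_of_pow_eq_one hwj)
        rw [hi]
        exact Nat.Coprime.pow_right i (Nat.coprime_ordCompl hr (orderOf_pos v).ne').symm)
      have h1 : C1 (v * w) ≤ C1 (w : G) := fun z hz => by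
        have h2 : Commute z ((v * w) ^ d) := (show Commute z (v * w) from mem_C1.1 hz).pow_right d
        rw [hvw.mul_pow] at h2
        have h3 : Commute z (v ^ d) := mem_center_iff.1 hvd z
        have h4 := h3.inv_right.mul_right h2
        rw [inv_mul_cancel_left] at h4
        have h5 := h4.pow_right u
        rw [hu] at h5
        exact mem_C1.2 h5.eq
      have h2 : C1 (v * w) = C1 (w : G) := by
        refine le_antisymm h1 ?_
        rw [← relIndex_eq_one]
        have h3 := relIndex_mul_index h1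
        have h4 : (C1 (v * w)).index = (C1 (w : G)).index := le_antisymm ((h.top _).trans hwm.ge)
          (Nat.le_of_dvd (Nat.pos_of_ne_zero index_ne_zero_of_finite) (index_dvd_of_le h1))
        rw [h4] at h3
        exact Nat.eq_of_mul_eq_mul_right (Nat.pos_of_ne_zero index_ne_zero_of_finite) (by rw [h3, one_mul])
      have h6 : C1 (w : G) ≤ C1 v := fun z hz => mem_C1.2 (by
        have := (show Commute z (v * w) from mem_C1.1 (h2.symm ▸ hz)).mul_right
          (show Commute z (w : G) from mem_C1.1 hz).inv_right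
        rwa [mul_inv_cancel_right] at this)
      exact hp.not_dvd_one (h.cop ▸ Nat.dvd_gcd (hpv.trans (hwm ▸ index_dvd_of_le h6)) hpn)
    · have h7 := hpel r hr hrn (v ^ d) ((orderOf v).factorization r)
        (by rw [← pow_mul, mul_comm, ← he, hed, pow_orderOf_eq_one]) hvd
      have h8 := index_dvd_of_le (C1_le_of_mem_zpowers (pow_mem (mem_zpowers v) d))
      exact hvm (le_antisymm (h.top v) (h7.ge.trans
        (Nat.le_of_dvd (Nat.pos_of_ne_zero index_ne_zero_of_finite) h8)))
  -- Sylow subgroups are central modulo `M`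
  obtain ⟨P, hgP⟩ : ∃ P : Sylow p G, g ∈ (P : Subgroup G) := by
    obtain ⟨i, -, hi⟩ := (Nat.dvd_prime_pow hp).1 (orderOf_dvd_of_pow_eq_one hgk)
    obtain ⟨Q, hQ⟩ := (IsPGroup.of_card (n := i) (by rw [Nat.card_zpowers, hi]) :
      IsPGroup p (zpowers g)).exists_le_sylow
    exact ⟨Q, hQ (mem_zpowers g)⟩
  let π := QuotientGroup.mk' M
  have hall : centralizer (((P : Subgroup G).map π : Subgroup (G ⧸ M)) : Set (G ⧸ M)) = ⊤ := by
    by_contra hne
    obtain ⟨v, hv⟩ := exists_not_conj_mem hne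
    obtain ⟨v, rfl⟩ := QuotientGroup.mk'_surjective M v
    by_cases hpv : p ∣ cls v
    · have hcop : (cls v).Coprime m := by rw [hdich v hpv]; exact h.cop.symm
      refine hv 1 (mem_centralizer_iff.2 ?_)
      rintro _ ⟨t, -, rfl⟩
      rw [inv_one, one_mul, mul_one, ← map_mul, ← map_mul]
      refine QuotientGroup.eq.2 ?_
      have h1 := mem_topM hcop t⁻¹
      convert h1 using 1
      group
    · obtain ⟨R⟩ : Nonempty (Sylow p ↥(C1 v)) := inferInstance
      have hRp : IsPGroup p ↥((R : Subgroup ↥(C1 v)).map (C1 v).subtype) := R.2.map _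
      have hRi : ¬ p ∣ ((R : Subgroup ↥(C1 v)).map (C1 v).subtype).index := by
        rw [index_map_subtype]
        exact fun h' => (hp.dvd_mul.1 h').elim R.not_dvd_index hpv
      obtain ⟨k, hk⟩ := MulAction.exists_smul_eq G P (hRp.toSylow hRi)
      refine hv (π k) (mem_centralizer_iff.2 ?_)
      rintro _ ⟨t, ht, rfl⟩
      have h1 : k * t * k⁻¹ ∈ ((hRp.toSylow hRi : Sylow p G) : Subgroup G) := by
        rw [← hk, Sylow.coe_subgroup_smul, Subgroup.mem_pointwise_smul_iff_inv_smul_mem]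
        simp only [MulAut.smul_def, map_inv, MulAut.inv_apply, MulAut.conj_symm_apply]
        rw [show k⁻¹ * (k * t * k⁻¹) * k = t by group]
        exact ht
      obtain ⟨d, -, hd⟩ := h1
      have h2 := mem_C1.1 d.2
      rw [show (d : G) = k * t * k⁻¹ from hd] at h2
      rw [← map_inv, ← map_mul, ← map_mul, ← map_mul, ← map_mul]
      congr 1
      calc t * (k⁻¹ * v * k) = k⁻¹ * ((k * t * k⁻¹) * v) * k := by group
        _ = k⁻¹ * (v * (k * t * k⁻¹)) * k := by rw [h2]
        _ = _ := by group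
  have hfac : ∀ v : G, ∃ c ∈ M, ∃ u ∈ H, v = c * u := by
    intro v
    have h1 : π v ∈ centralizer (((P : Subgroup G).map π : Subgroup (G ⧸ M)) : Set (G ⧸ M)) :=
      hall ▸ mem_top _
    have h2 := mem_centralizer_iff.1 h1 (π g) ⟨g, hgP, rfl⟩
    rw [← map_mul, ← map_mul] at h2
    have h3 := topM_normal.conj_mem _ (QuotientGroup.eq.1 h2) v
    have h4 : g⁻¹ * (v * g * v⁻¹) ∈ M := by
      convert h3 using 1
      group
    obtain ⟨d, hd, e⟩ := hsurj g hfixg _ h4
    rw [mul_inv_cancel_left] at e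
    refine ⟨d, hd, d⁻¹ * v, mem_C1.2 ?_, by rw [mul_inv_cancel_left]⟩
    calc d⁻¹ * v * g = d⁻¹ * (v * g * v⁻¹) * v := by group
      _ = d⁻¹ * (d * g * d⁻¹) * v := by rw [e]
      _ = g * (d⁻¹ * v) := by group
  have hHcomm : ∀ v ∈ H, v ∉ center G → C1 v = H := by
    intro v hv hvc
    refine SetLike.coe_injective (Set.eq_of_subset_of_ncard_le (fun u hu => ?_) ?_)
    · obtain ⟨c, hc, u', hu', rfl⟩ := hfac u
      have hcom : c * u' * v = v * (c * u') := mem_C1.1 hu
      have h1 : v⁻¹ * (u' * v * u'⁻¹) = 1 := by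
        refine hMH _ ?_ (H.mul_mem (H.inv_mem hv) (H.mul_mem (H.mul_mem hu' hv) (H.inv_mem hu')))
        have e : u' * v * u'⁻¹ = c⁻¹ * v * c := by
          calc u' * v * u'⁻¹ = c⁻¹ * (c * u' * v) * u'⁻¹ := by group
            _ = c⁻¹ * (v * (c * u')) * u'⁻¹ := by rw [hcom]
            _ = _ := by group
        rw [e, show v⁻¹ * (c⁻¹ * v * c) = (v⁻¹ * c⁻¹ * v) * c by group]
        have h3 := topM_normal.conj_mem _ (inv_mem hc) v⁻¹
        rw [inv_inv] at h3
        exact mul_mem h3 hc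
      rw [inv_mul_eq_one, eq_mul_inv_iff_mul_eq] at h1
      have hc1 := hfpf v hv hvc c hc (by
        calc v * c = v * (c * u') * u'⁻¹ := by group
          _ = c * u' * v * u'⁻¹ := by rw [hcom]
          _ = c * (v * u') * u'⁻¹ := by rw [h1, mul_assoc c]
          _ = c * v := by group)
      rw [hc1, one_mul]
      exact hu'
    · have e1 := card_mul_index (C1 v)
      have e2 := card_mul_index H
      have h3 : (C1 v).index = H.index := (hclsH v hv hvc).trans hg.symm
      rw [h3, ← e2] at e1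
      rw [← Nat.card_coe_set_eq, ← Nat.card_coe_set_eq]
      exact (Nat.eq_of_mul_eq_mul_right (Nat.pos_of_ne_zero index_ne_zero_of_finite) e1).ge
  refine ⟨fun v hv => ?_, fun v w hv hw => ?_, fun v => ⟨fun hv => ?_, ?_⟩, hfac, hMH,
    fun u hu huc => hsurj u (hfpf u hu huc), hfpf⟩
  · obtain ⟨c, hc, u, hu, rfl⟩ := hfac v
    have huc : u ∉ center G := fun huz => by
      have h1 : C1 x ≤ C1 (c * u) := by
        rw [C1_le_of_central_mul (b := c * u) huz rfl]
        intro t ht
        obtain ⟨c', hc', u', hu', rfl⟩ := hfac t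
        have hu'Z : u' ∈ center G := by
          refine hD ⟨?_, hu'⟩
          have h2 : c' ∈ C1 x := hCx ▸ mem_C1.2 (h.comm_topM hc' hμ)
          have := (C1 x).mul_mem ((C1 x).inv_mem h2) ht
          rwa [inv_mul_cancel_left] at this
        exact (C1 c).mul_mem (mem_C1.2 (h.comm_topM hc' hc)) (center_le_C1 c hu'Z)
      have h2 : m ∣ n := hv ▸ h.hx ▸ index_dvd_of_le h1
      have := Nat.eq_one_of_dvd_coprimes h.cop dvd_rfl h2
      have := h.lt
      have := h.one_lt
      omega
    obtain ⟨d, -, hde⟩ := hsurj u (hfpf u hu huc) (u⁻¹ * c * u) (by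
      have := topM_normal.conj_mem _ hc u⁻¹
      rwa [inv_inv] at this)
    refine ⟨d, ?_⟩
    rw [show c * u = u * (u⁻¹ * c * u) by group, ← hde]
    ext t
    have key : ∀ a : G, t ∈ C1 (d * a * d⁻¹) ↔ d⁻¹ * t * d ∈ C1 a := by
      intro a
      rw [mem_C1, mem_C1]
      refine ⟨fun h' => ?_, fun h' => ?_⟩
      · calc d⁻¹ * t * d * a = d⁻¹ * (t * (d * a * d⁻¹)) * d := by group
          _ = d⁻¹ * ((d * a * d⁻¹) * t) * d := by rw [h']
          _ = _ := by group
      · calc t * (d * a * d⁻¹) = d * ((d⁻¹ * t * d) * a) * d⁻¹ := by group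
          _ = d * (a * (d⁻¹ * t * d)) * d⁻¹ := by rw [h']
          _ = _ := by group
    rw [key, key, hHcomm u hu huc]
  · by_cases hwc : w ∈ center G
    · exact mem_center_iff.1 hwc v
    · exact mem_C1.1 (show v ∈ C1 w by rw [hHcomm w hw hwc]; exact hv)
  · obtain ⟨c, hc, u, hu, rfl⟩ := hfac v
    refine ⟨c, hc, u, hD ⟨?_, hu⟩, rfl⟩
    have h2 : c ∈ C1 x := hCx ▸ mem_C1.2 (h.comm_topM hc hμ)
    have := (C1 x).mul_mem ((C1 x).inv_mem h2) hv
    rwa [inv_mul_cancel_left] at this
  · rintro ⟨c, hc, z, hz, rfl⟩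
    exact (C1 x).mul_mem (hCx ▸ mem_C1.2 (h.comm_topM hc hμ)) (center_le_C1 x hz)

end Top

end Cfsg.Agent.Lib.ClassGraph
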